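import Cfsg.Agent.H871.Par9

/-!
# Elementary abelian 2-groups in projective self-dual representations of dimension eight (helper1, task 5978)

* `exists_diag` : simultaneous diagonalisation of an abelian subgroup;
* `PD.sixteen` : no `2⁴ : SL₂(4)` in dimension eight, characteristic not two;
* `PD.psl34` : no `PSL₃(4)`.
-/

set_option autoImplicit false
set_option linter.unusedSectionVars false

universe u v w

namespace Cfsg.Agent.H1.EP8

open Module Cfsg.Agent.H912.Bd

section diag

variable {K : Type*} [Field K] {V : Type*} [AddCommGroup V] [Module K V] {L : Type*} [Group L]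
  [FiniteDimensional K V] (ρ : L →* Module.End K V) {A : Subgroup L}

/-- the basis of weight vectors -/
theorem exists_basis [IsAlgClosed K] (hA : ∀ a ∈ A, ∀ b ∈ A, a * b = b * a) {N : ℕ} (hN : (N : K) ≠ 0)
    (hAN : ∀ a ∈ A, a ^ N = 1) :
    ∃ (b : Basis (Fin (finrank K V)) K V) (χ : Fin (finrank K V) → A → K), ∀ i, b i ∈ wt ρ A (χ i) := by
  classical
  have hint : DirectSum.IsInternal (wt ρ A) :=
    (DirectSum.isInternal_submodule_iff_iSupIndep_and_iSup_eq_top _).2 ⟨indep_wt ρ hA hN hAN, iSup_wt ρ hA hN hAN⟩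
  let b' := hint.collectedBasis (fun χ => Module.finBasis K (wt ρ A χ))
  have hfin := FiniteDimensional.fintypeBasisIndex b'
  let e := Fintype.equivFinOfCardEq (Module.finrank_eq_card_basis b').symm
  refine ⟨b'.reindex e, fun i => (e.symm i).1, fun i => ?_⟩
  rw [Basis.reindex_apply]
  exact hint.collectedBasis_mem _ _

theorem exists_diag [IsAlgClosed K] (hA : ∀ a ∈ A, ∀ b ∈ A, a * b = b * a) {N : ℕ} (hN : (N : K) ≠ 0)
    (hAN : ∀ a ∈ A, a ^ N = 1) :
    ∃ (b : Basis (Fin (finrank K V)) K V) (χ : Fin (finrank K V) → A →* K), ∀ i (a : A), ρ a (b i) = χ i a • b i := by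
  obtain ⟨b, χ, h⟩ := exists_basis ρ hA hN hAN
  have hne : ∀ i, wt ρ A (χ i) ≠ ⊥ := by
    intro i hbot
    have h1 := h i
    rw [hbot, Submodule.mem_bot] at h1
    exact b.ne_zero i h1
  exact ⟨b, fun i => ⟨⟨χ i, wt_one ρ (hne i)⟩, fun x y => wt_mul ρ (hne i) x y⟩, fun i a => mem_wt.1 (h i) a⟩

theorem exists_diag' [IsAlgClosed K] (hA : ∀ a ∈ A, ∀ b ∈ A, a * b = b * a) {N : ℕ} (hN : (N : K) ≠ 0)
    (hAN : ∀ a ∈ A, a ^ N = 1) {n : ℕ} (hn : finrank K V = n) :
    ∃ (b : Basis (Fin n) K V) (χ : Fin n → A →* K), ∀ i (a : A), ρ a (b i) = χ i a • b i := by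
  subst hn
  exact exists_diag ρ hA hN hAN

variable {κ : Type*} [Fintype κ] (b : Basis κ K V) (f : Module.End K V) (c : κ → K) (hf : ∀ i, f (b i) = c i • b i)

include hf in
open Classical in
/-- the fixed space of a diagonalisable endomorphism -/
theorem finrank_ker : finrank K (LinearMap.ker (f - 1)) = (Finset.univ.filter fun i => c i = 1).card := by
  have h1 : LinearMap.ker (f - 1) = Submodule.span K (Set.range fun i : {i // c i = 1} => b i) := by
    apply le_antisymm
    · intro v hv
      rw [LinearMap.mem_ker, LinearMap.sub_apply, Module.End.one_apply] at hv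
      have h2 : ∀ i, (c i - 1) * b.repr v i = 0 := by
        intro i
        have h3 : f v = ∑ j, (c j * b.repr v j) • b j := by
          conv_lhs => rw [← b.sum_repr v]
          rw [map_sum]
          refine Finset.sum_congr rfl fun j _ => ?_
          rw [map_smul, hf, smul_smul, mul_comm]
        have h4 : b.repr (f v) i = c i * b.repr v i := by
          rw [h3]
          simp [map_sum, Finsupp.single_apply]
        have h5 : b.repr (f v - v) i = 0 := by rw [hv]; simp
        rw [map_sub, Finsupp.sub_apply, h4] at h5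
        linear_combination h5
      rw [← b.sum_repr v]
      refine Submodule.sum_mem _ fun i _ => ?_
      by_cases hi : c i = 1
      · exact Submodule.smul_mem _ _ (Submodule.subset_span ⟨⟨i, hi⟩, rfl⟩)
      · rcases mul_eq_zero.1 (h2 i) with h6 | h6
        · exact absurd (sub_eq_zero.1 h6) hi
        · rw [h6, zero_smul]
          exact Submodule.zero_mem _
    · rw [Submodule.span_le]
      rintro _ ⟨i, rfl⟩
      change b i ∈ LinearMap.ker (f - 1)
      rw [LinearMap.mem_ker, LinearMap.sub_apply, Module.End.one_apply, hf, i.2, one_smul, sub_self]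
  have h2 := finrank_span_eq_card (b.linearIndependent.comp (fun i : {i // c i = 1} => (i : κ)) Subtype.val_injective)
  rw [h1]
  exact h2.trans (Fintype.card_subtype _)

end diag

end Cfsg.Agent.H1.EP8
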