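import Cfsg.Agent.H1.EP8.Diag

/-!
# No `PSL₃(4)` in self-dual projective representations of dimension eight, odd characteristic (helper1, task 5978)
-/

set_option autoImplicit false
set_option linter.unusedSectionVars false

universe u v w

namespace Cfsg.Agent.H1.EP8

open Module Matrix Cfsg.Agent.H912.Bd Cfsg.Agent.H871.Par

/-- the signs -/
theorem sum_sign (m : ℕ) (e : Fin m → Fin 4 → ℤ) (he : ∀ i j, e i j = 1 ∨ e i j = -1) :
    (16 : ℤ) ∣ ∑ S : Finset (Fin 4), ∑ i, ∏ j ∈ S, e i j := by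
  rw [Finset.sum_comm]
  refine Finset.dvd_sum fun i _ => ?_
  have h1 : ∑ S : Finset (Fin 4), ∏ j ∈ S, e i j = ∏ j, (1 + e i j) := by
    rw [Finset.prod_one_add, Finset.powerset_univ]
  rw [h1, Fin.prod_univ_four]
  rcases he i 0 with h0 | h0 <;> rcases he i 1 with h1 | h1 <;> rcases he i 2 with h2 | h2 <;>
    rcases he i 3 with h3 | h3 <;> rw [h0, h1, h2, h3] <;> norm_num

/-- arithmetic: the traces `t S`, `S ≠ ∅`, are `± t` -/
theorem no_trace (t : Finset (Fin 4) → ℤ) (h0 : t ∅ = 8) (h16 : (16 : ℤ) ∣ ∑ S, t S) (D : ℤ) (hD : 0 < D) (hD8 : D < 8)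
    (ht : ∀ S, S ≠ ∅ → t S = 2 * D - 8 ∨ t S = 8 - 2 * D) : False := by
  have hsum : ∑ S, t S = t ∅ + ∑ S ∈ Finset.univ.erase ∅, t S := by
    rw [Finset.add_sum_erase _ _ (Finset.mem_univ _)]
  have hcard : (Finset.univ.erase (∅ : Finset (Fin 4))).card = 15 := by
    rw [Finset.card_erase_of_mem (Finset.mem_univ _), Finset.card_univ]
    rfl
  have key : ∀ m c : ℤ, (∀ S, S ≠ ∅ → m ∣ t S - c) → m ∣ (∑ S ∈ Finset.univ.erase ∅, t S) - 15 * c := by
    intro m c h
    have h1 : (∑ S ∈ Finset.univ.erase (∅ : Finset (Fin 4)), t S) - 15 * c =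
        ∑ S ∈ Finset.univ.erase (∅ : Finset (Fin 4)), (t S - c) := by
      rw [Finset.sum_sub_distrib, Finset.sum_const, hcard]
      simp
    rw [h1]
    exact Finset.dvd_sum fun S hS => h S (Finset.ne_of_mem_erase hS)
  rw [hsum, h0] at h16
  have hc : D = 4 ∨ D = 2 ∨ D = 6 ∨ (D % 2 = 1) := by omega
  rcases hc with h | h | h | h
  · have h1 := key 16 0 (fun S hS => by rcases ht S hS with h2 | h2 <;> rw [h2] <;> omega)
    omega
  · have h1 := key 8 4 (fun S hS => by rcases ht S hS with h2 | h2 <;> rw [h2] <;> omega)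
    omega
  · have h1 := key 8 4 (fun S hS => by rcases ht S hS with h2 | h2 <;> rw [h2] <;> omega)
    omega
  · have h1 := key 4 2 (fun S hS => by rcases ht S hS with h2 | h2 <;> rw [h2] <;> omega)
    omega

section wd

variable {G : Type*} [Monoid G]

/-- the product of the `x j`, `j ∈ S` -/
def wd (x : Fin 4 → G) (S : Finset (Fin 4)) : G :=
  (if 0 ∈ S then x 0 else 1) * (if 1 ∈ S then x 1 else 1) * (if 2 ∈ S then x 2 else 1) * (if 3 ∈ S then x 3 else 1)

theorem map_wd {H : Type*} [Monoid H] (φ : G →* H) (x : Fin 4 → G) (S : Finset (Fin 4)) :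
    φ (wd x S) = wd (fun j => φ (x j)) S := by
  unfold wd
  simp only [map_mul, apply_ite φ, map_one]

theorem wd_eq_prod {H : Type*} [CommMonoid H] (c : Fin 4 → H) (S : Finset (Fin 4)) : wd c S = ∏ j ∈ S, c j := by
  have h1 : ∏ j ∈ S, c j = ∏ j, if j ∈ S then c j else 1 := by
    rw [Finset.prod_ite_mem, Finset.univ_inter]
  rw [h1, Fin.prod_univ_four]
  rfl

end wd

section dp

variable {K : Type*} [Field K] {V : Type*} [AddCommGroup V] [Module K V] {L : Type*} [Group L]
  [FiniteDimensional K V] (ρ : L →* Module.End K V)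

/-- the dimension of the fixed space -/
noncomputable def dp (y : L) : ℕ := finrank K (LinearMap.ker (ρ y - 1))

theorem dp_conj_le (γ y : L) : dp ρ y ≤ dp ρ (γ * y * γ⁻¹) := by
  have hinj : Function.Injective (ρ γ) := rho_injective ρ γ
  have h1 : (LinearMap.ker (ρ y - 1)).map (ρ γ) ≤ LinearMap.ker (ρ (γ * y * γ⁻¹) - 1) := by
    rintro _ ⟨v, hv, rfl⟩
    have hv' : ρ y v = v := by
      have := LinearMap.mem_ker.1 hv
      rwa [LinearMap.sub_apply, Module.End.one_apply, sub_eq_zero] at this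
    rw [LinearMap.mem_ker, LinearMap.sub_apply, Module.End.one_apply, ← Module.End.mul_apply, ← map_mul,
      inv_mul_cancel_right, map_mul, Module.End.mul_apply, hv', sub_self]
  exact ((LinearEquiv.finrank_eq (Submodule.equivMapOfInjective (ρ γ) hinj _))).le.trans (Submodule.finrank_mono h1)

theorem dp_conj (γ y : L) : dp ρ (γ * y * γ⁻¹) = dp ρ y := by
  apply le_antisymm _ (dp_conj_le ρ γ y)
  have h1 := dp_conj_le ρ γ⁻¹ (γ * y * γ⁻¹)
  rwa [show γ⁻¹ * (γ * y * γ⁻¹) * γ⁻¹⁻¹ = y by group] at h1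

end dp

variable {F : Type u} [Field F] {T : Type v} [Group T]

/-- the representation theoretic part -/
theorem no_elem16 (h : PD F 8 T) (h2 : (2 : F) ≠ 0) (E : Subgroup T) (hE : ∀ a ∈ E, a * a = 1)
    (hE8 : ∃ a ∈ E, ∃ b ∈ E, ∃ c ∈ E, a ≠ 1 ∧ b ≠ 1 ∧ b ≠ a ∧ c ≠ 1 ∧ c ≠ a ∧ c ≠ b ∧ c ≠ a * b)
    (htr : ∀ a ∈ E, ∀ b ∈ E, a ≠ 1 → b ≠ 1 → ∃ g, g * a * g⁻¹ = b)
    (x : Fin 4 → T) (hx : ∀ j, x j ∈ E) (hg1 : ∀ S, S ≠ ∅ → wd x S ≠ 1) : False := by
  classical
  obtain ⟨L, _, π, V, _, _, _, ρ, B, hπ, hρ, hker, hnd, hinv, h8⟩ := h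
  set K := AlgebraicClosure F with hK
  have h2' : (2 : K) ≠ 0 := two_ne h2
  have hne : (1 : K) ≠ -1 := fun h => h2' (by linear_combination h)
  have helem : ∀ x : L, π x ∈ E → x * x = 1 := fun x hx => sq_eq_one hρ hker hπ hE hE8 htr hx
  let A : Subgroup L := E.comap π
  have hA2 : ∀ a ∈ A, a * a = 1 := fun a ha => helem a ha
  have hA : ∀ a ∈ A, ∀ b ∈ A, a * b = b * a := by
    intro a ha b hb
    have h1 := hA2 _ (A.mul_mem ha hb)
    have h3 : a⁻¹ = a := inv_eq_of_mul_eq_one_left (hA2 a ha)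
    have h4 : b⁻¹ = b := inv_eq_of_mul_eq_one_left (hA2 b hb)
    have h5 : (a * b)⁻¹ = a * b := inv_eq_of_mul_eq_one_left h1
    rw [_root_.mul_inv_rev, h3, h4] at h5
    exact h5.symm
  have hN : ((2 : ℕ) : K) ≠ 0 := by exact_mod_cast h2'
  have hA2' : ∀ a ∈ A, a ^ 2 = 1 := fun a ha => by rw [pow_two]; exact hA2 a ha
  obtain ⟨b, χ, hb⟩ := exists_diag' ρ hA hN hA2' h8
  choose xl hxl using fun j => hπ (x j)
  let xA : Fin 4 → A := fun j => ⟨xl j, by show π (xl j) ∈ E; rw [hxl]; exact hx j⟩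
  -- the characters have values `± 1`
  have hχ : ∀ i (a : A), χ i a = 1 ∨ χ i a = -1 := by
    intro i a
    have h1 : χ i a * χ i a = 1 := by
      rw [← map_mul, show a * a = 1 from Subtype.ext (hA2 a a.2), map_one]
    exact mul_self_eq_one_iff.1 h1
  let e : Fin 8 → Fin 4 → ℤ := fun i j => if χ i (xA j) = 1 then 1 else -1
  have he : ∀ i j, e i j = 1 ∨ e i j = -1 := by
    intro i j
    by_cases h : χ i (xA j) = 1
    · exact Or.inl (if_pos h)
    · exact Or.inr (if_neg h)
  have hec : ∀ i j, ((e i j : ℤ) : K) = χ i (xA j) := by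
    intro i j
    by_cases h : χ i (xA j) = 1
    · change (((if χ i (xA j) = 1 then 1 else -1 : ℤ)) : K) = _
      rw [if_pos h, h, Int.cast_one]
    · change (((if χ i (xA j) = 1 then 1 else -1 : ℤ)) : K) = _
      rw [if_neg h, (hχ i (xA j)).resolve_left h, Int.cast_neg, Int.cast_one]
  let l : Finset (Fin 4) → A := fun S => wd xA S
  have hl : ∀ S, π (l S : L) = wd x S := by
    intro S
    have h1 := map_wd (π.comp A.subtype) xA S
    have h3 : (fun j => (π.comp A.subtype) (xA j)) = x := funext fun j => hxl j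
    rw [h3] at h1
    exact h1
  have hprod : ∀ i S, ((∏ j ∈ S, e i j : ℤ) : K) = χ i (l S) := by
    intro i S
    rw [Int.cast_prod, map_wd, wd_eq_prod]
    exact Finset.prod_congr rfl fun j _ => hec i j
  have hpm : ∀ i S, (∏ j ∈ S, e i j) = if χ i (l S) = 1 then (1 : ℤ) else -1 := by
    intro i S
    have h1 : (∏ j ∈ S, e i j) = 1 ∨ (∏ j ∈ S, e i j) = -1 := by
      refine Finset.prod_induction _ (fun z : ℤ => z = 1 ∨ z = -1) ?_ (Or.inl rfl) (fun j _ => he i j)
      rintro a c (rfl | rfl) (rfl | rfl) <;> simp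
    rcases h1 with h1 | h1
    · have h3 := hprod i S
      rw [h1, Int.cast_one] at h3
      rw [h1, if_pos h3.symm]
    · have h3 := hprod i S
      rw [h1, Int.cast_neg, Int.cast_one] at h3
      rw [h1, if_neg]
      rw [← h3]
      exact fun h => hne h.symm
  -- the traces
  have hdp : ∀ S, dp ρ (l S : L) = (Finset.univ.filter fun i => χ i (l S) = 1).card := fun S =>
    finrank_ker b (ρ (l S : L)) (fun i => χ i (l S)) (fun i => hb i (l S))
  have ht : ∀ S, ∑ i, ∏ j ∈ S, e i j = 2 * (dp ρ (l S : L) : ℤ) - 8 := by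
    intro S
    have h1 : ∑ i, ∏ j ∈ S, e i j = ∑ i : Fin 8, if χ i (l S) = 1 then (1 : ℤ) else -1 :=
      Finset.sum_congr rfl fun i _ => hpm i S
    have h3 : ∀ i : Fin 8, (if χ i (l S) = 1 then (1 : ℤ) else -1) = 2 * (if χ i (l S) = 1 then 1 else 0) - 1 := by
      intro i
      split_ifs <;> norm_num
    rw [h1, Finset.sum_congr rfl fun i _ => h3 i, Finset.sum_sub_distrib, ← Finset.mul_sum, Finset.sum_boole, ← hdp]
    simp
  have hx0 : x 0 ≠ 1 := by
    have := hg1 {0} (by simp)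
    simpa [wd] using this
  refine no_trace (fun S => ∑ i, ∏ j ∈ S, e i j) (by simp) (sum_sign 8 e he) (dp ρ (xl 0)) ?_ ?_ ?_
  · -- `xl 0` is not `-1`
    by_contra hcon
    have h0 : dp ρ (xl 0) = 0 := by omega
    have hc0 : ∀ i, χ i (xA 0) = -1 := by
      intro i
      have h1 : dp ρ (xl 0) = (Finset.univ.filter fun i => χ i (xA 0) = 1).card :=
        finrank_ker b (ρ (xl 0)) (fun i => χ i (xA 0)) (fun i => hb i (xA 0))
      rw [h0] at h1
      have h3 := Finset.card_eq_zero.1 h1.symm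
      have h4 : i ∉ Finset.univ.filter fun i => χ i (xA 0) = 1 := by rw [h3]; simp
      rw [Finset.mem_filter] at h4
      exact (hχ i (xA 0)).resolve_left fun h => h4 ⟨Finset.mem_univ _, h⟩
    have hm : ρ (xl 0) = -1 := by
      apply b.ext
      intro i
      have h1 := hb i (xA 0)
      rw [hc0] at h1
      rw [LinearMap.neg_apply, Module.End.one_apply]
      rw [show ρ (xl 0) = ρ (xA 0 : L) from rfl, h1, neg_smul, one_smul]
    have hcomm : ∀ y : L, xl 0 * y = y * xl 0 := by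
      intro y
      apply hρ
      rw [map_mul, map_mul, hm]
      simp
    have hcT : ∀ g : T, g * x 0 * g⁻¹ = x 0 := by
      intro g
      obtain ⟨g', rfl⟩ := hπ g
      rw [← hxl 0, ← map_mul, ← hcomm g', map_mul, mul_inv_cancel_right]
    have hx1 : x 1 ≠ 1 := by
      have := hg1 {1} (by simp)
      simpa [wd] using this
    obtain ⟨g, hg⟩ := htr _ (hx 0) _ (hx 1) hx0 hx1
    rw [hcT] at hg
    apply hg1 {0, 1} (by simp)
    simp [wd, ← hg, hE _ (hx 0)]
  · -- `xl 0` is not `1`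
    by_contra hcon
    have h1 : dp ρ (xl 0) = (Finset.univ.filter fun i => χ i (xA 0) = 1).card :=
      finrank_ker b (ρ (xl 0)) (fun i => χ i (xA 0)) (fun i => hb i (xA 0))
    have h3 : (Finset.univ.filter fun i => χ i (xA 0) = 1).card = 8 := by
      have h4 := Finset.card_le_univ (Finset.univ.filter fun i => χ i (xA 0) = 1)
      rw [Fintype.card_fin] at h4
      omega
    have h4 : (Finset.univ.filter fun i => χ i (xA 0) = 1) = Finset.univ :=
      Finset.eq_univ_of_card _ (by rw [h3, Fintype.card_fin])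
    have hm : ρ (xl 0) = 1 := by
      apply b.ext
      intro i
      have h5 : i ∈ Finset.univ.filter fun i => χ i (xA 0) = 1 := by rw [h4]; exact Finset.mem_univ _
      rw [Finset.mem_filter] at h5
      rw [show ρ (xl 0) = ρ (xA 0 : L) from rfl, hb i (xA 0), h5.2, one_smul, Module.End.one_apply]
    apply hx0
    rw [← hxl 0, hρ (hm.trans (map_one ρ).symm), map_one]
  · intro S hS
    have h1 := hg1 S hS
    have hlE : wd x S ∈ E := by rw [← hl]; exact (l S).2
    obtain ⟨g, hg⟩ := htr _ (hx 0) _ hlE hx0 h1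
    obtain ⟨γ, rfl⟩ := hπ g
    have hz1 : π (γ * xl 0 * γ⁻¹ * (l S : L)⁻¹) = 1 := by
      rw [map_mul, map_mul, map_mul, map_inv, map_inv, hxl, hg, hl, mul_inv_cancel]
    have hz : ρ (γ * xl 0 * γ⁻¹) = ρ (γ * xl 0 * γ⁻¹ * (l S : L)⁻¹) * ρ (l S : L) := by
      rw [← map_mul, inv_mul_cancel_right]
    have hd := dp_conj ρ γ (xl 0)
    show (∑ i, ∏ j ∈ S, e i j = _) ∨ (∑ i, ∏ j ∈ S, e i j = _)
    rw [ht S]
    rcases hker _ hz1 with h3 | h3
    · left
      rw [h3, one_mul] at hz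
      have h4 : dp ρ (γ * xl 0 * γ⁻¹) = dp ρ (l S : L) := by
        unfold dp
        rw [hz]
      omega
    · right
      rw [h3] at hz
      have h4 : dp ρ (γ * xl 0 * γ⁻¹) = (Finset.univ.filter fun i => -(χ i (l S)) = 1).card := by
        apply finrank_ker b (ρ (γ * xl 0 * γ⁻¹)) (fun i => -(χ i (l S)))
        intro i
        rw [hz, Module.End.mul_apply, hb, LinearMap.neg_apply, Module.End.one_apply, neg_smul]
      have h5 : (Finset.univ.filter fun i => -(χ i (l S)) = 1) = (Finset.univ.filter fun i => ¬ χ i (l S) = 1) := by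
        ext i
        simp only [Finset.mem_filter, Finset.mem_univ, true_and]
        constructor
        · intro h6 h7
          rw [h7] at h6
          exact hne h6.symm
        · intro h6
          rw [(hχ i (l S)).resolve_left h6, neg_neg]
      have h6 := Finset.card_filter_add_card_filter_not (s := (Finset.univ : Finset (Fin 8))) (fun i => χ i (l S) = 1)
      rw [← h5, ← h4, ← hdp S, Finset.card_univ, Fintype.card_fin] at h6
      omega

end Cfsg.Agent.H1.EP8
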