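import Cfsg.Agent.H1.EP8.LFour

/-!
# No `PSL₃(4)` in self-dual projective representations of dimension eight, odd characteristic (helper1, task 5978)
-/

set_option autoImplicit false
set_option linter.unusedSectionVars false

universe u v w

namespace Cfsg.Agent.H1.EP8

open Module Matrix Cfsg.Agent.H912.Bd Cfsg.Agent.H871.Par

variable {F : Type u} [Field F] {T : Type v} [Group T]

/-- **`2⁴ : SL₂(4)`**: `f : K × K → T`, `|K| = 4`, additive to multiplicative, `SL_2(K)` acting. -/
theorem no_sixteen (h : PD F 8 T) (h2 : (2 : F) ≠ 0) {K : Type w} [Field K] [CharP K 2] {w : K}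
    (hw : w ^ 2 + w + 1 = 0) (f : K × K → T) (hf : ∀ x y, f (x + y) = f x * f y) (hinj : Function.Injective f)
    (hact : ∀ a b c d : K, a * d - b * c = 1 → ∃ g : T, ∀ x : K × K,
      g * f x * g⁻¹ = f (a * x.1 + b * x.2, c * x.1 + d * x.2)) : False := by
  have h20 : (2 : K) = 0 := by exact_mod_cast CharP.cast_eq_zero K 2
  have hxx : ∀ x : K × K, x + x = 0 := by
    intro x
    ext
    · change x.1 + x.1 = 0; linear_combination x.1 * h20
    · change x.2 + x.2 = 0; linear_combination x.2 * h20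
  have f0 : f 0 = 1 := by
    have := hf 0 0
    rw [add_zero] at this
    exact left_eq_mul.1 this
  let E : Subgroup T :=
    { carrier := Set.range f
      mul_mem' := by
        rintro _ _ ⟨x, rfl⟩ ⟨y, rfl⟩
        exact ⟨x + y, hf x y⟩
      one_mem' := ⟨0, f0⟩
      inv_mem' := by
        rintro _ ⟨x, rfl⟩
        refine ⟨x, ?_⟩
        have := hf x x
        rw [hxx, f0] at this
        exact eq_inv_of_mul_eq_one_left this.symm }
  have hw0 : w ≠ 0 := by
    rintro rfl
    norm_num at hw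
  have hw1 : w ≠ 1 := by
    rintro rfl
    have : (1 : K) = 0 := by linear_combination hw - h20
    exact one_ne_zero this
  have hw2 : 1 + w ≠ 0 := by
    intro h3
    apply hw1
    linear_combination h3 - h20
  -- transitivity
  have tr1 : ∀ x : K × K, x ≠ 0 → ∃ g : T, g * f (1, 0) * g⁻¹ = f x := by
    intro x hx
    by_cases h1 : x.1 = 0
    · have h3 : x.2 ≠ 0 := fun h3 => hx (Prod.ext h1 h3)
      obtain ⟨g, hg⟩ := hact 0 (-(x.2)⁻¹) x.2 0 (by field_simp; ring)
      refine ⟨g, ?_⟩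
      rw [hg]
      congr 1
      ext
      · simp [h1]
      · simp
    · obtain ⟨g, hg⟩ := hact x.1 0 x.2 (x.1)⁻¹ (by field_simp; ring)
      refine ⟨g, ?_⟩
      rw [hg]
      congr 1
      ext
      · simp
      · simp
  have ne : ∀ x y : K × K, x ≠ y → f x ≠ f y := fun x y hxy h => hxy (hinj h)
  let v : Fin 4 → K × K := ![(1, 0), (w, 0), (0, 1), (0, w)]
  refine no_elem16 h h2 E (by
    rintro _ ⟨x, rfl⟩
    rw [← hf, hxx, f0]) ?_ ?_ (fun j => f (v j)) (fun j => ⟨_, rfl⟩) ?_
  · -- three independent elements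
    refine ⟨f (1, 0), ⟨_, rfl⟩, f (0, 1), ⟨_, rfl⟩, f (w, 0), ⟨_, rfl⟩, ?_, ?_, ?_, ?_, ?_, ?_, ?_⟩
    · rw [← f0]; exact ne _ _ (by simp)
    · rw [← f0]; exact ne _ _ (by simp)
    · exact ne _ _ (by simp)
    · rw [← f0]; exact ne _ _ (by simp [hw0])
    · exact ne _ _ (by simp [hw1])
    · exact ne _ _ (by simp)
    · rw [← hf]; exact ne _ _ (by simp)
  · rintro _ ⟨x, rfl⟩ _ ⟨z, rfl⟩ hx hz
    obtain ⟨g, hg⟩ := tr1 x (by rintro rfl; exact hx f0)
    obtain ⟨g', hg'⟩ := tr1 z (by rintro rfl; exact hz f0)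
    refine ⟨g' * g⁻¹, ?_⟩
    rw [← hg, ← hg']
    group
  · intro S hS h1
    have h3 : wd (fun j => f (v j)) S = f ((if 0 ∈ S then v 0 else 0) + (if 1 ∈ S then v 1 else 0) +
        (if 2 ∈ S then v 2 else 0) + (if 3 ∈ S then v 3 else 0)) := by
      unfold wd
      rw [hf, hf, hf]
      simp only [apply_ite f, f0]
    rw [h3, ← f0] at h1
    have h4 := hinj h1
    have e1 := congrArg Prod.fst h4
    have e2 := congrArg Prod.snd h4
    have v0 : v 0 = (1, 0) := rfl
    have v1 : v 1 = (w, 0) := rfl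
    have v2 : v 2 = (0, 1) := rfl
    have v3 : v 3 = (0, w) := rfl
    rw [v0, v1, v2, v3] at e1 e2
    have m0 : 0 ∉ S := by
      intro h0
      by_cases h5 : 1 ∈ S <;> by_cases h6 : 2 ∈ S <;> by_cases h7 : 3 ∈ S <;>
        simp [h0, h5, h6, h7, hw0, hw1, hw2] at e1 e2
    have m1 : 1 ∉ S := by
      intro h0
      by_cases h6 : 2 ∈ S <;> by_cases h7 : 3 ∈ S <;>
        simp [m0, h0, h6, h7, hw0, hw1, hw2] at e1 e2
    have m2 : 2 ∉ S := by
      intro h0
      by_cases h7 : 3 ∈ S <;> simp [m0, m1, h0, h7, hw0, hw1, hw2] at e1 e2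
    have m3 : 3 ∉ S := by
      intro h0
      simp [m0, m1, m2, h0, hw0, hw1, hw2] at e1 e2
    apply hS
    rw [Finset.eq_empty_iff_forall_notMem]
    intro j
    fin_cases j
    · exact m0
    · exact m1
    · exact m2
    · exact m3

/-- **No `PSL₃(4)`.** -/
theorem no_psl34 (h : PD F 8 T) (h2 : (2 : F) ≠ 0) {K : Type w} [Field K] [Fintype K] (hK : Fintype.card K = 4)
    (e : T ≃* ProjectiveSpecialLinearGroup (Fin 3) K) : False := by
  have hpow : ∀ x : K, x ^ 4 = x := by
    intro x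
    rw [← hK]; exact FiniteField.pow_card x
  have hchar : CharP K 2 := by
    obtain ⟨p, hp⟩ := CharP.exists K
    have : Fact p.Prime := ⟨CharP.char_is_prime K p⟩
    have h1 : p ∣ Fintype.card K := by
      obtain ⟨n, -, hn⟩ := FiniteField.card K p
      rw [hn]; exact dvd_pow_self _ n.pos.ne'
    rw [hK] at h1
    have h2 : p ∣ 2 := this.out.dvd_of_dvd_pow (show p ∣ 2 ^ 2 from h1)
    rw [(Nat.prime_dvd_prime_iff_eq this.out Nat.prime_two).1 h2] at hp
    exact hp
  have hex : ∃ x : K, x ≠ 0 ∧ x ≠ 1 := by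
    classical
    by_contra hcon
    push Not at hcon
    have h1 : (Finset.univ : Finset K) ⊆ {0, 1} := by
      intro x _
      rw [Finset.mem_insert, Finset.mem_singleton]
      by_cases h0 : x = 0
      · exact Or.inl h0
      · exact Or.inr (hcon x h0)
    have h2 := Finset.card_le_card h1
    rw [Finset.card_univ, hK] at h2
    have h3 : ({0, 1} : Finset K).card ≤ 2 := Finset.card_le_two
    omega
  obtain ⟨w, hw0, hw1⟩ := hex
  have hw : w ^ 2 + w + 1 = 0 := by
    have h1 : w * (w - 1) * (w ^ 2 + w + 1) = 0 := by linear_combination hpow w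
    exact (mul_eq_zero.1 h1).resolve_left (mul_ne_zero hw0 (sub_ne_zero.2 hw1))
  let f : K × K → ProjectiveSpecialLinearGroup (Fin 3) K := fun x => QuotientGroup.mk (tr3 x)
  refine no_sixteen (h.congr e.symm) h2 hw f (fun x y => ?_) ?_ ?_
  · change QuotientGroup.mk _ = QuotientGroup.mk _ * QuotientGroup.mk _
    rw [tr3_add]; rfl
  · intro x y hxy
    have h1 : (tr3 x)⁻¹ * tr3 y ∈ Subgroup.center (SpecialLinearGroup (Fin 3) K) := QuotientGroup.eq.1 hxy
    have h3 : (tr3 x)⁻¹ = tr3 (-x) := by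
      rw [inv_eq_iff_mul_eq_one, ← tr3_add, add_neg_cancel]
      apply Subtype.ext
      change !![(1 : K), 0, 0; 0, 1, 0; 0, 0, 1] = 1
      exact Matrix.one_fin_three.symm
    rw [h3, ← tr3_add, Matrix.SpecialLinearGroup.mem_center_iff] at h1
    obtain ⟨r, -, hr⟩ := h1
    have e1 := congrFun (congrFun hr 0) 2
    have e2 := congrFun (congrFun hr 1) 2
    have d1 : (Matrix.scalar (Fin 3) r) 0 2 = 0 := by simp
    have d2 : (Matrix.scalar (Fin 3) r) 1 2 = 0 := by simp
    have k1 : (-x + y).1 = 0 := by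
      have : (tr3 (-x + y)).1 0 2 = (-x + y).1 := rfl
      rw [← this, ← d1]; exact e1.symm
    have k2 : (-x + y).2 = 0 := by
      have : (tr3 (-x + y)).1 1 2 = (-x + y).2 := rfl
      rw [← this, ← d2]; exact e2.symm
    ext
    · have : -x.1 + y.1 = 0 := k1
      linear_combination -this
    · have : -x.2 + y.2 = 0 := k2
      linear_combination -this
  · intro a b c d hdet
    let g : SpecialLinearGroup (Fin 3) K := ⟨!![a, b, 0; c, d, 0; 0, 0, 1], by
      simp [Matrix.det_fin_three]; linear_combination hdet⟩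
    refine ⟨QuotientGroup.mk g, fun x => ?_⟩
    rw [mul_inv_eq_iff_eq_mul]
    change QuotientGroup.mk _ * QuotientGroup.mk _ = QuotientGroup.mk _ * QuotientGroup.mk _
    have key : g * tr3 x = tr3 (a * x.1 + b * x.2, c * x.1 + d * x.2) * g := by
      apply Subtype.ext
      change !![a, b, 0; c, d, 0; 0, 0, 1] * !![1, 0, x.1; 0, 1, x.2; 0, 0, 1] =
        !![1, 0, a * x.1 + b * x.2; 0, 1, c * x.1 + d * x.2; 0, 0, 1] * !![a, b, 0; c, d, 0; 0, 0, 1]
      ext i j
      fin_cases i <;> fin_cases j <;> simp [Matrix.mul_apply, Fin.sum_univ_three]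
    exact congrArg QuotientGroup.mk key

end Cfsg.Agent.H1.EP8
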